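import Cfsg.Agent.H776.Co.FusDef
import Cfsg.Agent.Schreier.Tools2
import Cfsg.Agent.Lib.FrattiniPGroup

/-!
# S5227, C6: the automorphisms of the model `P` (helper587)
-/

set_option autoImplicit false
set_option linter.style.longLine false

namespace Cfsg.Agent.H587.CoC6

open Subgroup Cfsg Cfsg.Agent.H776.Co P
open scoped commutatorElement

/-- elements of the torus part -/
def Xb (b : ZMod 3) : P := ⟨0, b, 0, 0, 0, 0, 0, 0, 0⟩
def Xc (c : ZMod 3) : P := ⟨0, 0, c, 0, 0, 0, 0, 0, 0⟩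
def E (m11 m12 m22 m13 m23 m33 : ZMod 3) : P := ⟨0, 0, 0, m11, m12, m22, m13, m23, m33⟩

/-- the middle subgroup -/
def W2 : Set P := {x | x.a = 0 ∧ x.b = 0 ∧ x.c = 0 ∧ x.m22 = 0 ∧ x.m13 = 0 ∧ x.m23 = 0 ∧ x.m33 = 0}
def X4 : Set P := {x | x.a = 0 ∧ x.b = 0 ∧ x.c = 0 ∧ x.m23 = 0 ∧ x.m33 = 0}

/-- the commutator, if it lies in `A` -/
theorem comm_eq (x y : P) (h : x.c + y.c + x.a * y.b = y.c + x.c + y.a * x.b) :
    ⁅x, y⁆ = E ((x * y).m11 - (y * x).m11) ((x * y).m12 - (y * x).m12) ((x * y).m22 - (y * x).m22)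
      ((x * y).m13 - (y * x).m13) ((x * y).m23 - (y * x).m23) ((x * y).m33 - (y * x).m33) := by
  have h1 : ∀ u z : P, E (u.m11 - z.m11) (u.m12 - z.m12) (u.m22 - z.m22) (u.m13 - z.m13) (u.m23 - z.m23) (u.m33 - z.m33) * z =
      ⟨z.a, z.b, z.c, u.m11, u.m12, u.m22, u.m13, u.m23, u.m33⟩ := by
    intro u z
    ext <;> simp [E]
  have h2 : E ((x * y).m11 - (y * x).m11) ((x * y).m12 - (y * x).m12) ((x * y).m22 - (y * x).m22)
      ((x * y).m13 - (y * x).m13) ((x * y).m23 - (y * x).m23) ((x * y).m33 - (y * x).m33) * (y * x) = x * y := by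
    rw [h1]
    ext
    · exact add_comm _ _
    · exact add_comm _ _
    · exact h.symm
    all_goals rfl
  rw [← eq_mul_inv_iff_mul_eq] at h2
  rw [h2, commutatorElement_def]
  group

theorem comm_c (x y : P) : (⁅x, y⁆).c = x.a * y.b - y.a * x.b := by
  rw [commutatorElement_def]
  simp
  ring

theorem comm_a (x y : P) : (⁅x, y⁆).a = 0 := by
  rw [commutatorElement_def]
  simp

theorem comm_b (x y : P) : (⁅x, y⁆).b = 0 := by
  rw [commutatorElement_def]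
  simp

theorem two_zero : ∀ m : ZMod 3, 2 * m = 0 → m = 0 := by decide

theorem xy_eq (x y : P) : x * y = ⁅x, y⁆ * (y * x) := by rw [commutatorElement_def]; group

/-- `Z(P) = W1` -/
theorem z1 {x : P} : x ∈ W1 ↔ ∀ y : P, x * y = y * x := by
  constructor
  · rintro ⟨h1, h2, h3, h4, h5, h6, h7, h8⟩ y
    ext <;> simp [h1, h2, h3, h4, h5, h6, h7, h8, add_comm]
  · intro h
    have e1 := h (xa 1)
    have e2 := h (Xb 1)
    have e3 := h (E 0 0 0 0 0 1)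
    rw [P.ext_iff] at e1 e2 e3
    simp [xa, Xb, E] at e1 e2 e3
    obtain ⟨-, hb, h11, h22, h23⟩ := e1
    obtain ⟨-, ha, h13, -, h33⟩ := e2
    refine ⟨ha, hb, e3.1, two_zero _ ?_, h22, h13, h23, h33⟩
    linear_combination -h11 - h22

theorem z2 {x : P} : x ∈ W2 ↔ ∀ y : P, ⁅x, y⁆ ∈ W1 := by
  constructor
  · rintro ⟨h1, h2, h3, h4, h5, h6, h7⟩ y
    rw [comm_eq x y (by rw [h1, h2, h3]; ring)]
    refine ⟨rfl, rfl, rfl, ?_, ?_, ?_, ?_, ?_⟩ <;> simp [E, h1, h2, h3, h4, h5, h6, h7, add_comm]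
  · intro h
    have e1 := xy_eq x (xa 1)
    have e2 := xy_eq x (Xb 1)
    have e3 := xy_eq x (E 0 0 0 0 0 1)
    obtain ⟨a1, a2, a3, a4, a5, a6, a7, a8⟩ := h (xa 1)
    obtain ⟨b1, b2, b3, b4, b5, b6, b7, b8⟩ := h (Xb 1)
    obtain ⟨c1, c2, c3, c4, c5, c6, c7, c8⟩ := h (E 0 0 0 0 0 1)
    rw [P.ext_iff] at e1 e2 e3
    simp only [mul_a, mul_b, mul_c, mul_m11, mul_m12, mul_m22, mul_m13, mul_m23, mul_m33, a1, a2, a3, a4, a5, a6, a7, a8] at e1
    simp only [mul_a, mul_b, mul_c, mul_m11, mul_m12, mul_m22, mul_m13, mul_m23, mul_m33, b1, b2, b3, b4, b5, b6, b7, b8] at e2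
    simp only [mul_a, mul_b, mul_c, mul_m11, mul_m12, mul_m22, mul_m13, mul_m23, mul_m33, c1, c2, c3, c4, c5, c6, c7, c8] at e3
    simp [xa] at e1
    simp [Xb] at e2
    simp [E] at e3
    exact ⟨e2.2.1, e1.2.1, e3.2.2.2.1, e1.2.2.2.1, e2.2.2.2.1, e1.2.2.2.2, e2.2.2.2.2.2⟩

theorem z3 {x : P} : x ∈ X4 ↔ ∀ y : P, ⁅x, y⁆ ∈ W2 := by
  constructor
  · rintro ⟨h1, h2, h3, h6, h7⟩ y
    rw [comm_eq x y (by rw [h1, h2, h3]; ring)]
    refine ⟨rfl, rfl, rfl, ?_, ?_, ?_, ?_⟩ <;> simp [E, h1, h2, h3, h6, h7, add_comm]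
  · intro h
    have e1 := xy_eq x (xa 1)
    have e2 := xy_eq x (Xb 1)
    have e3 := xy_eq x (E 0 0 0 0 0 1)
    obtain ⟨a1, a2, a3, a5, a6, a7, a8⟩ := h (xa 1)
    obtain ⟨b1, b2, b3, b5, b6, b7, b8⟩ := h (Xb 1)
    obtain ⟨c1, c2, c3, c5, c6, c7, c8⟩ := h (E 0 0 0 0 0 1)
    rw [P.ext_iff] at e1 e2 e3
    simp only [mul_a, mul_b, mul_c, mul_m11, mul_m12, mul_m22, mul_m13, mul_m23, mul_m33, a1, a2, a3, a5, a6, a7, a8] at e1
    simp only [mul_a, mul_b, mul_c, mul_m11, mul_m12, mul_m22, mul_m13, mul_m23, mul_m33, b1, b2, b3, b5, b6, b7, b8] at e2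
    simp only [mul_a, mul_b, mul_c, mul_m11, mul_m12, mul_m22, mul_m13, mul_m23, mul_m33, c1, c2, c3, c5, c6, c7, c8] at e3
    simp [xa] at e1
    simp [Xb] at e2
    simp [E] at e3
    exact ⟨e2.2.1, e1.2.1, e3.2.2.2.1, e1.2.2.2.2, e2.2.2.2.2.2⟩

theorem zA {x : P} : x ∈ A ↔ ∀ w ∈ X4, x * w = w * x := by
  constructor
  · rintro ⟨h1, h2, h3⟩ w ⟨h4, h5, h6, h7, h8⟩
    ext <;> simp [h1, h2, h3, h4, h5, h6, h7, h8, add_comm]
  · intro h
    have e1 := h (E 0 1 0 0 0 0) ⟨rfl, rfl, rfl, rfl, rfl⟩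
    have e2 := h (E 0 0 0 1 0 0) ⟨rfl, rfl, rfl, rfl, rfl⟩
    rw [P.ext_iff] at e1 e2
    simp [E] at e1 e2
    exact ⟨e1.1.resolve_left (by decide), e2.2.1, e2.1.resolve_left (by decide)⟩

theorem zR1 {x : P} : x ∈ R1 ↔ ∀ w ∈ W2, x * w = w * x := by
  constructor
  · intro (h1 : x.a = 0) w ⟨h4, h5, h6, h7, h8, h9, h10⟩
    ext <;> simp [h1, h4, h5, h6, h7, h8, h9, h10, add_comm]
  · intro h
    have e1 := h (E 0 1 0 0 0 0) ⟨rfl, rfl, rfl, rfl, rfl, rfl, rfl⟩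
    rw [P.ext_iff] at e1
    simp [E] at e1
    exact e1.1.resolve_left (by decide)

theorem zW3 {x : P} : x ∈ W3 ↔ ∀ w ∈ R1, x * w = w * x := by
  constructor
  · rintro ⟨h1, h2, h3, h4, h5, h6⟩ w (h7 : w.a = 0)
    ext <;> simp [h1, h2, h3, h4, h5, h6, h7, add_comm]
  · intro h
    have e1 := h (E 0 0 0 0 0 1) rfl
    have e2 := h (Xb 1) rfl
    rw [P.ext_iff] at e1 e2
    simp [E, Xb] at e1 e2
    exact ⟨e2.2.1, e1.2.2.1, e1.1, e2.2.2.1, two_zero _ (by linear_combination -e2.2.2.2.1 - e2.2.2.2.2), e2.2.2.2.2⟩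

theorem comm_A (x : P) {v : P} (hv : v ∈ A) : ⁅x, v⁆ = E (2 * x.a * v.m12 + 2 * x.c * v.m13 + x.a ^ 2 * v.m22 + 2 * x.a * x.c * v.m23 + x.c ^ 2 * v.m33)
    (x.a * v.m22 + x.c * v.m23 + x.b * (v.m13 + x.a * v.m23 + x.c * v.m33)) (2 * x.b * v.m23 + x.b ^ 2 * v.m33)
    (x.a * v.m23 + x.c * v.m33) (x.b * v.m33) 0 := by
  obtain ⟨h1, h2, h3⟩ := hv
  rw [comm_eq x v (by rw [h1, h2, h3]; ring)]
  simp only [E, P.mk.injEq, mul_m11, mul_m12, mul_m22, mul_m13, mul_m23, mul_m33, h1, h2, h3, true_and]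
  refine ⟨?_, ?_, ?_, ?_, ?_, ?_⟩ <;> ring

theorem zR2 {x : P} : x ∈ R2 ↔ ∀ v ∈ A, ⁅x, ⁅x, v⁆⁆ ∈ W1 := by
  constructor
  · intro (h1 : x.b = 0) v hv
    rw [comm_A x (v := ⁅x, v⁆) (by rw [comm_A x hv]; exact ⟨rfl, rfl, rfl⟩), comm_A x hv]
    refine ⟨rfl, rfl, rfl, ?_, ?_, ?_, ?_, ?_⟩ <;> simp [E, h1]
  · intro h
    have e1 := h (E 0 0 0 0 0 1) ⟨rfl, rfl, rfl⟩
    rw [comm_A x (v := ⁅x, _⁆) (by rw [comm_A x ⟨rfl, rfl, rfl⟩]; exact ⟨rfl, rfl, rfl⟩), comm_A x ⟨rfl, rfl, rfl⟩] at e1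
    obtain ⟨-, -, -, -, e1, -⟩ := e1
    simp [E] at e1
    exact e1.resolve_left (by decide)

theorem cube (x : P) : (x * x * x).a = 0 ∧ (x * x * x).b = 0 ∧ (x * x * x).c = 0 ∧ (x * x * x).m13 = x.a * x.b * x.m33 ∧
    (x * x * x).m23 = 0 ∧ (x * x * x).m33 = 0 := by
  have h3 : (3 : ZMod 3) = 0 := rfl
  refine ⟨?_, ?_, ?_, ?_, ?_, ?_⟩ <;> simp
  · linear_combination x.a * h3
  · linear_combination x.b * h3
  · linear_combination (x.c + x.a * x.b) * h3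
  · linear_combination (x.m13 + x.a * x.m23 + x.c * x.m33) * h3
  · linear_combination (x.m23 + x.b * x.m33) * h3
  · linear_combination x.m33 * h3

/-! ### equivariance -/

section equiv

variable (e : P ≃* P)

theorem e1 {x : P} : e x ∈ W1 ↔ x ∈ W1 := by
  rw [z1, z1, e.surjective.forall]
  refine forall_congr' fun y => ?_
  rw [← map_mul, ← map_mul, e.injective.eq_iff]

theorem e2 {x : P} : e x ∈ W2 ↔ x ∈ W2 := by
  rw [z2, z2, e.surjective.forall]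
  refine forall_congr' fun y => ?_
  rw [← map_commutatorElement, e1]

theorem e3 {x : P} : e x ∈ X4 ↔ x ∈ X4 := by
  rw [z3, z3, e.surjective.forall]
  refine forall_congr' fun y => ?_
  rw [← map_commutatorElement, e2]

theorem eA {x : P} : e x ∈ A ↔ x ∈ A := by
  rw [zA, zA, e.surjective.forall]
  refine forall_congr' fun y => ?_
  rw [e3, ← map_mul, ← map_mul, e.injective.eq_iff]

theorem eR1 {x : P} : e x ∈ R1 ↔ x ∈ R1 := by
  rw [zR1, zR1, e.surjective.forall]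
  refine forall_congr' fun y => ?_
  rw [e2, ← map_mul, ← map_mul, e.injective.eq_iff]

theorem eW3 {x : P} : e x ∈ W3 ↔ x ∈ W3 := by
  rw [zW3, zW3, e.surjective.forall]
  refine forall_congr' fun y => ?_
  rw [eR1, ← map_mul, ← map_mul, e.injective.eq_iff]

theorem eR2 {x : P} : e x ∈ R2 ↔ x ∈ R2 := by
  rw [zR2, zR2, e.surjective.forall]
  refine forall_congr' fun y => ?_
  rw [eA, ← map_commutatorElement, ← map_commutatorElement, e1]

end equiv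

/-! ### homomorphisms to `F₃` -/

section hom

variable {l : P → ZMod 3} (hl : ∀ x y, l (x * y) = l x + l y)

include hl

theorem l_one : l 1 = 0 := by
  have := hl 1 1
  rw [mul_one] at this
  simpa using this

theorem l_inv (x : P) : l x⁻¹ = - l x := by
  have := hl x⁻¹ x
  rw [inv_mul_cancel, l_one hl] at this
  exact eq_neg_of_add_eq_zero_left this.symm

theorem l_comm (x y : P) : l ⁅x, y⁆ = 0 := by
  rw [commutatorElement_def, hl, hl, hl, l_inv hl, l_inv hl]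
  ring

end hom

/-- elements with `a = b = m33 = 0` are products of commutators -/
theorem phi_eq {x : P} (ha : x.a = 0) (hb : x.b = 0) (h33 : x.m33 = 0) :
    x = ⁅Xb 1, E 0 0 0 x.m12 (x.m23 - x.m22) x.m23⁆ * ⁅xa 1, E 0 (-x.m11) 0 0 x.m13 0⁆ * ⁅xa x.c, Xb 1⁆ := by
  have h1 : ⁅xa x.c, Xb 1⁆ = Xc x.c := by
    rw [commutatorElement_def]
    ext <;> simp [xa, Xb, Xc]
  rw [h1, comm_A _ ⟨rfl, rfl, rfl⟩, comm_A _ ⟨rfl, rfl, rfl⟩]
  have h3 : (3 : ZMod 3) = 0 := rfl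
  ext <;> simp [E, Xb, Xc, xa, ha, hb, h33]
  · linear_combination x.m11 * h3
  · linear_combination (x.m22 - x.m23) * h3

theorem add_fun {g : ZMod 3 → ZMod 3} (hg : ∀ a b, g (a + b) = g a + g b) (a : ZMod 3) : g a = a * g 1 := by
  have h0 : g 0 = 0 := by
    have := hg 0 0
    rw [add_zero] at this
    simpa using this
  have h2 : g 2 = 2 * g 1 := by
    have h := hg 1 1
    have e : (1 : ZMod 3) + 1 = 2 := rfl
    rw [e] at h
    rw [h]; ring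
  have key : ∀ a : ZMod 3, a = 0 ∨ a = 1 ∨ a = 2 := by decide
  rcases key a with rfl | rfl | rfl
  · rw [h0, zero_mul]
  · rw [one_mul]
  · exact h2

theorem hom_form {l : P → ZMod 3} (hl : ∀ x y, l (x * y) = l x + l y) (x : P) :
    l x = x.a * l (xa 1) + x.b * l (Xb 1) + x.m33 * l (E 0 0 0 0 0 1) := by
  have h1 : l (xa x.a) = x.a * l (xa 1) := by
    refine add_fun (g := fun a => l (xa a)) (fun a b => ?_) x.a
    rw [← hl, show xa (a + b) = xa a * xa b by ext <;> simp [xa]]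
  have h2 : l (Xb x.b) = x.b * l (Xb 1) := by
    refine add_fun (g := fun b => l (Xb b)) (fun a b => ?_) x.b
    rw [← hl, show Xb (a + b) = Xb a * Xb b by ext <;> simp [Xb]]
  have h3 : l (E 0 0 0 0 0 x.m33) = x.m33 * l (E 0 0 0 0 0 1) := by
    refine add_fun (g := fun m => l (E 0 0 0 0 0 m)) (fun a b => ?_) x.m33
    rw [← hl, show E 0 0 0 0 0 (a + b) = E 0 0 0 0 0 a * E 0 0 0 0 0 b by ext <;> simp [E]]
  have h4 : l (x * (xa x.a * Xb x.b * E 0 0 0 0 0 x.m33)⁻¹) = 0 := by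
    rw [phi_eq (x := x * (xa x.a * Xb x.b * E 0 0 0 0 0 x.m33)⁻¹) (by simp [xa, Xb, E]) (by simp [xa, Xb, E]) (by simp [xa, Xb, E]),
      hl, hl, l_comm hl, l_comm hl, l_comm hl, add_zero, add_zero]
  rw [hl, l_inv hl, hl, hl, h1, h2, h3] at h4
  linear_combination h4

theorem sq_one : ∀ e : ZMod 3, e ≠ 0 → e ^ 2 = 1 := by decide

/-- the automorphism -/
noncomputable def toE {f : P → P} (hmul : ∀ x y, f (x * y) = f x * f y) (hinj : Function.Injective f) : P ≃* P :=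
  MulEquiv.ofBijective (MonoidHom.mk' f hmul) ⟨hinj, Finite.injective_iff_surjective.1 hinj⟩

theorem aut_P {f : P → P} (hmul : ∀ x y, f (x * y) = f x * f y) (hinj : Function.Injective f) :
    (∀ x ∈ A, f x ∈ A) ∧ (∀ x ∈ W1, f x ∈ W1) ∧ (∀ x ∈ W3, f x ∈ W3) ∧
    ∃ e1 e2 e3 : ZMod 3, e1 ^ 2 = 1 ∧ e2 ^ 2 = 1 ∧ e3 ^ 2 = 1 ∧ ∀ x, (f x).a = e1 * x.a ∧ (f x).b = e2 * x.b ∧ (f x).m33 = e3 * x.m33 := by
  have h0 : ∀ x, f x = toE hmul hinj x := fun _ => rfl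
  set e := toE hmul hinj with he
  refine ⟨fun x hx => (eA e).2 hx, fun x hx => (e1 e).2 hx, fun x hx => (eW3 e).2 hx, ?_⟩
  have ha := hom_form (l := fun x => (f x).a) (fun x y => by rw [hmul]; rfl)
  have hb := hom_form (l := fun x => (f x).b) (fun x y => by rw [hmul]; rfl)
  have hm := hom_form (l := fun x => (f x).m33) (fun x y => by rw [hmul]; rfl)
  have a1 : (f (Xb 1)).a = 0 := (eR1 e (x := Xb 1)).2 rfl
  have a2 : (f (E 0 0 0 0 0 1)).a = 0 := (eR1 e (x := E 0 0 0 0 0 1)).2 rfl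
  have b1 : (f (xa 1)).b = 0 := (eR2 e (x := xa 1)).2 rfl
  have b2 : (f (E 0 0 0 0 0 1)).b = 0 := (eR2 e (x := E 0 0 0 0 0 1)).2 rfl
  have a3 : (f (xa 1)).a ≠ 0 := fun h => by
    have h1 : xa 1 ∈ R1 := (eR1 e).1 h
    exact absurd (show (1 : ZMod 3) = 0 from h1) (by decide)
  have b3 : (f (Xb 1)).b ≠ 0 := fun h => by
    have h1 : Xb 1 ∈ R2 := (eR2 e).1 h
    exact absurd (show (1 : ZMod 3) = 0 from h1) (by decide)
  -- cubes
  have hc : ∀ x : P, x.a * x.b * x.m33 = 0 → (f x).a * (f x).b * (f x).m33 = 0 := by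
    intro x hx
    have c1 := cube x
    have c2 := cube (f x)
    have h1 : x * x * x ∈ W3 := ⟨c1.1, c1.2.1, c1.2.2.1, by rw [c1.2.2.2.1, hx], c1.2.2.2.2.1, c1.2.2.2.2.2⟩
    have h2 := (eW3 e).2 h1
    rw [← h0, hmul, hmul] at h2
    rw [← c2.2.2.2.1]
    exact h2.2.2.2.1
  beta_reduce at ha hb hm
  have hm1 : (f (xa 1)).m33 = 0 ∧ (f (Xb 1)).m33 = 0 := by
    have h1 := hc (xa 1 * Xb 1) (by simp [xa, Xb])
    have h2 := hc (xa 1 * Xb (-1)) (by simp [xa, Xb])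
    rw [ha, hb, hm] at h1 h2
    simp only [a1, a2, b1, b2, mul_a, mul_b, mul_m33] at h1 h2
    simp [xa, Xb] at h1 h2
    have h3 := h1.resolve_left (by rintro (h | h); exacts [a3 h, b3 h])
    have h4 := h2.resolve_left (by rintro (h | h); exacts [a3 h, b3 h])
    constructor
    · apply two_zero
      show 2 * (f ⟨1, 0, 0, 0, 0, 0, 0, 0, 0⟩).m33 = 0
      linear_combination h3 + h4
    · apply two_zero
      show 2 * (f ⟨0, 1, 0, 0, 0, 0, 0, 0, 0⟩).m33 = 0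
      linear_combination h3 - h4
  have hm3 : (f (E 0 0 0 0 0 1)).m33 ≠ 0 := by
    intro h
    obtain ⟨x, hx⟩ := e.surjective (E 0 0 0 0 0 1)
    have h1 := hm x
    rw [hm1.1, hm1.2, h, h0, hx] at h1
    simp [E] at h1
  refine ⟨(f (xa 1)).a, (f (Xb 1)).b, (f (E 0 0 0 0 0 1)).m33, sq_one _ a3, sq_one _ b3, sq_one _ hm3, fun x => ⟨?_, ?_, ?_⟩⟩
  · rw [ha x, a1, a2]; ring
  · rw [hb x, b1, b2]; ring
  · rw [hm x, hm1.1, hm1.2]; ring

theorem mem_frattini {x : P} (ha : x.a = 0) (hb : x.b = 0) (h33 : x.m33 = 0) : x ∈ frattini P := by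
  have hc : ∀ x y : P, ⁅x, y⁆ ∈ frattini P := fun x y =>
    Cfsg.Agent.Lib.FrattiniPGroup.commutator_mem_frattini isPGroup_P x y
  rw [phi_eq ha hb h33]
  exact mul_mem (mul_mem (hc _ _) (hc _ _)) (hc _ _)

theorem pow_of_trivial {f : P → P} (hmul : ∀ x y, f (x * y) = f x * f y) (hinj : Function.Injective f)
    (h : ∀ x, (f x).a = x.a ∧ (f x).b = x.b ∧ (f x).m33 = x.m33) : ∃ k : ℕ, ∀ x, f^[3 ^ k] x = x := by
  have h0 : ∀ x, f x = toE hmul hinj x := fun _ => rfl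
  set e := toE hmul hinj with he
  have h3 : Fact (Nat.Prime 3) := ⟨Nat.prime_three⟩
  have h1 : ∀ n : ℕ, ∀ x, f^[n] x = (e ^ n : MulAut P) x := by
    intro n
    induction n with
    | zero => intro x; rfl
    | succ n ih =>
      intro x
      rw [Function.iterate_succ_apply', ih, pow_succ', h0]
      rfl
  have h2 : ∀ n : ℕ, ∀ x, ((f^[n] x).a = x.a ∧ (f^[n] x).b = x.b ∧ (f^[n] x).m33 = x.m33) := by
    intro n
    induction n with
    | zero => intro x; exact ⟨rfl, rfl, rfl⟩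
    | succ n ih =>
      intro x
      rw [Function.iterate_succ_apply]
      obtain ⟨i1, i2, i3⟩ := ih (f x)
      obtain ⟨j1, j2, j3⟩ := h x
      exact ⟨i1.trans j1, i2.trans j2, i3.trans j3⟩
  have hfin : Finite (MulAut P) := inferInstance
  have hp := Cfsg.Agent.Schreier.Tools2.isPGroup_of_trivial_mod_frattini (p := 3) isPGroup_P (zpowers (e : MulAut P)) (by
    intro φ hφ t
    obtain ⟨n, -, rfl⟩ : ∃ n : ℕ, True ∧ (e : MulAut P) ^ n = φ := by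
      obtain ⟨n, hn⟩ := (mem_powers_iff_mem_zpowers).2 hφ
      exact ⟨n, trivial, hn⟩
    rw [← h1]
    obtain ⟨i1, i2, i3⟩ := h2 n t
    apply mem_frattini
    · rw [mul_a, inv_a, i1]; ring
    · rw [mul_b, inv_b, i2]; ring
    · rw [mul_m33, inv_m33, i3]; ring)
  obtain ⟨k, hk⟩ := hp ⟨e, mem_zpowers _⟩
  refine ⟨k, fun x => ?_⟩
  rw [h1]
  have h4 : (e : MulAut P) ^ 3 ^ k = 1 := congrArg Subtype.val hk
  rw [h4]
  rfl

end Cfsg.Agent.H587.CoC6
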